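import Cfsg.Agent.ExtremelyPrim.Core
import Mathlib.GroupTheory.Subgroup.Simple

/-!
An insoluble irreducible group with maximal vector stabilizers on a group of exponent two is almost
simple.
-/

set_option autoImplicit false
set_option linter.unusedSectionVars false

namespace Cfsg.Agent.ExtremelyPrim

open Subgroup

variable {H : Type*} [Group H]

/-- A minimal nontrivial subgroup of `M` normalized by `M`. -/
structure Factor (M T : Subgroup H) : Prop where
  le : T ≤ M
  ne_bot : T ≠ ⊥
  normalized : M ≤ normalizer (T : Set H)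
  minimal : ∀ L : Subgroup H, L ≤ T → L ≠ ⊥ → M ≤ normalizer (L : Set H) → L = T

theorem conj_mem {T : Subgroup H} {g x : H} (hg : g ∈ normalizer (T : Set H)) (hx : x ∈ T) :
    g * x * g⁻¹ ∈ T :=
  (mem_normalizer_iff.1 hg x).1 hx

/-- A subgroup that `g` and `g⁻¹` map into itself is normalized by `g`. -/
theorem mem_normalizer_of_mapsTo {T : Subgroup H} {g : H} (h1 : ∀ x ∈ T, g * x * g⁻¹ ∈ T)
    (h2 : ∀ x ∈ T, g⁻¹ * x * g ∈ T) : g ∈ normalizer (T : Set H) := by
  refine mem_normalizer_iff.2 fun x => ⟨h1 x, fun h => ?_⟩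
  have := h2 _ h
  rwa [show g⁻¹ * (g * x * g⁻¹) * g = x by group] at this

theorem mem_map_conj {T : Subgroup H} {g x : H} :
    x ∈ T.map (MulAut.conj g).toMonoidHom ↔ g⁻¹ * x * g ∈ T := by
  rw [mem_map]
  constructor
  · rintro ⟨y, hy, rfl⟩
    simpa [mul_assoc] using hy
  · exact fun h => ⟨_, h, by simp [mul_assoc]⟩

variable {M T T' : Subgroup H}

theorem Factor.conj [M.Normal] (hT : Factor M T) (g : H) :
    Factor M (T.map (MulAut.conj g).toMonoidHom) := by
  have hmem : ∀ {x : H}, x ∈ M → ∀ k : H, k * x * k⁻¹ ∈ M :=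
    fun hx k => (inferInstance : M.Normal).conj_mem _ hx k
  have key : ∀ (L : Subgroup H) (k : H), M ≤ normalizer (L : Set H) →
      M ≤ normalizer (L.map (MulAut.conj k).toMonoidHom : Set H) := by
    intro L k hL m hm
    refine mem_normalizer_iff.2 fun x => ?_
    rw [mem_map_conj, mem_map_conj, mem_normalizer_iff.1 (hL (hmem hm k⁻¹)) (k⁻¹ * x * k)]
    simp [mul_assoc]
  refine ⟨?_, ?_, key T g hT.normalized, fun L hL hne hn => ?_⟩
  · rintro x hx
    have := hmem (hT.le (mem_map_conj.1 hx)) g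
    simpa [mul_assoc] using this
  · rw [Ne, map_eq_bot_iff_of_injective _ (MulAut.conj g).injective]
    exact hT.ne_bot
  · have h : L.map (MulAut.conj g⁻¹).toMonoidHom = T := hT.minimal _
      (fun x hx => by
        have := mem_map_conj.1 (hL (mem_map_conj.1 hx))
        simpa [mul_assoc] using this)
      (by rwa [Ne, map_eq_bot_iff_of_injective _ (MulAut.conj g⁻¹).injective]) (key L _ hn)
    ext x
    rw [mem_map_conj, ← h, mem_map_conj]
    simp [mul_assoc]

theorem Factor.inf_eq_bot (hT : Factor M T) (hT' : Factor M T') (h : T ≠ T') : T ⊓ T' = ⊥ := by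
  by_contra hne
  have hn : M ≤ normalizer ((T ⊓ T' : Subgroup H) : Set H) := fun m hm =>
    mem_normalizer_iff.2 fun x => by
      simp only [mem_inf, mem_normalizer_iff.1 (hT.normalized hm) x,
        mem_normalizer_iff.1 (hT'.normalized hm) x]
  exact h ((hT.minimal _ inf_le_left hne hn).symm.trans (hT'.minimal _ inf_le_right hne hn))

theorem Factor.commute (hT : Factor M T) (hT' : Factor M T') (h : T ≠ T') {a b : H} (ha : a ∈ T)
    (hb : b ∈ T') : a * b = b * a := by
  have h1 : a * b * a⁻¹ * b⁻¹ ∈ T ⊓ T' := by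
    refine ⟨?_, T'.mul_mem (conj_mem (hT'.normalized (hT.le ha)) hb) (T'.inv_mem hb)⟩
    rw [show a * b * a⁻¹ * b⁻¹ = a * (b * a⁻¹ * b⁻¹) by group]
    exact T.mul_mem ha (conj_mem (hT.normalized (hT'.le hb)) (T.inv_mem ha))
  rw [hT.inf_eq_bot hT' h, Subgroup.mem_bot, mul_inv_eq_one, mul_inv_eq_iff_eq_mul] at h1
  exact h1

theorem exists_factor [Finite H] (hM : M ≠ ⊥) : ∃ T, Factor M T := by
  obtain ⟨T, -, hmin⟩ := Finite.exists_le_minimal
    (p := fun L : Subgroup H => L ≤ M ∧ L ≠ ⊥ ∧ M ≤ normalizer (L : Set H)) (a := M)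
    ⟨le_rfl, hM, le_normalizer⟩
  exact ⟨T, hmin.1.1, hmin.1.2.1, hmin.1.2.2, fun L hL hne hn =>
    le_antisymm hL (hmin.2 ⟨hL.trans hmin.1.1, hne, hn⟩ hL)⟩

/-- `M` is generated by the conjugates of one factor. -/
theorem Factor.induction [M.Normal] (hmin : ∀ L : Subgroup H, L.Normal → L ≤ M → L = ⊥ ∨ L = M)
    (hT : Factor M T) {P : H → Prop} (h1 : P 1) (hmul : ∀ a b, P a → P b → P (a * b))
    (hinv : ∀ a, P a → P a⁻¹) (hgen : ∀ g x : H, g⁻¹ * x * g ∈ T → P x) : ∀ m ∈ M, P m := by
  have hn : (normalClosure (T : Set H)) ≤ M := normalClosure_le_normal hT.le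
  rcases hmin _ normalClosure_normal hn with h | h
  · exact absurd (eq_bot_iff.2 (fun x hx => by rw [← h]; exact subset_normalClosure hx)) hT.ne_bot
  intro m hm
  rw [← h] at hm
  unfold normalClosure at hm
  refine closure_induction (fun x hx => ?_) h1 (fun a b _ _ => hmul a b) (fun a _ => hinv a) hm
  obtain ⟨t, ht, hc⟩ := Group.mem_conjugatesOfSet_iff.1 hx
  obtain ⟨g, rfl⟩ := isConj_iff.1 hc
  exact hgen g _ (by simpa [mul_assoc] using ht)

/-- A subgroup normalized by a factor that it is contained in is trivial or the factor. -/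
theorem Factor.eq_of_normalized [M.Normal]
    (hmin : ∀ L : Subgroup H, L.Normal → L ≤ M → L = ⊥ ∨ L = M) (hT : Factor M T) {L : Subgroup H}
    (hL : L ≤ T) (hne : L ≠ ⊥) (hn : T ≤ normalizer (L : Set H)) : L = T := by
  refine hT.minimal L hL hne (hT.induction hmin (one_mem _) (fun a b => mul_mem)
    (fun a => inv_mem) fun g x hx => ?_)
  by_cases h : T.map (MulAut.conj g).toMonoidHom = T
  · exact hn (h ▸ mem_map_conj.2 hx)
  · refine mem_normalizer_iff.2 fun y => ?_
    have hc : ∀ z ∈ L, x * z = z * x :=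
      fun z hz => (hT.conj g).commute hT h (mem_map_conj.2 hx) (hL hz)
    exact ⟨fun hy => by rwa [hc y hy, mul_inv_cancel_right], fun hy => by
      have e : x * y * x⁻¹ = y := calc
        x * y * x⁻¹ = x⁻¹ * (x * (x * y * x⁻¹)) := by group
        _ = x⁻¹ * (x * y * x⁻¹ * x) := by rw [hc _ hy]
        _ = y := by group
      rwa [e] at hy⟩

variable {V : Type*} [CommGroup V] [MulDistribMulAction H V]

theorem inf_stabilizer_conj (hT : Factor M T) {v : V} {y : H} (hy : y ∈ M)
    (hys : y ∈ MulAction.stabilizer H v) :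
    y ∈ normalizer ((T ⊓ MulAction.stabilizer H v : Subgroup H) : Set H) := by
  refine mem_normalizer_iff.2 fun x => ?_
  simp only [mem_inf, mem_normalizer_iff.1 (hT.normalized hy) x,
    mem_normalizer_iff.1 (le_normalizer hys) x]

variable [M.Normal] (hS : Setting H V) (hM : M ≠ ⊥)
  (hmin : ∀ L : Subgroup H, L.Normal → L ≤ M → L = ⊥ ∨ L = M)
include hS hM hmin

theorem Factor.not_le_stabilizer (hT : Factor M T) {v : V} (hv : v ≠ 1) :
    ¬ T ≤ MulAction.stabilizer H v := by
  intro hle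
  refine hv (hS.fixed_eq_one hM (hT.induction hmin (one_smul _ _)
    (fun a b ha hb => by rw [mul_smul, hb, ha]) (fun a ha => inv_smul_eq_iff.2 ha.symm) ?_))
  intro g x hx
  obtain ⟨s, hs, m, hm, rfl⟩ := hS.exists_mul hM hv g
  have h1 : m * ((s * m)⁻¹ * x * (s * m)) * m⁻¹ ∈ T := conj_mem (hT.normalized hm) hx
  rw [show m * ((s * m)⁻¹ * x * (s * m)) * m⁻¹ = s⁻¹ * x * s by group] at h1
  have h2 : s * (s⁻¹ * x * s) * s⁻¹ ∈ MulAction.stabilizer H v :=
    Subgroup.mul_mem _ (Subgroup.mul_mem _ hs (hle h1)) (Subgroup.inv_mem _ hs)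
  rwa [show s * (s⁻¹ * x * s) * s⁻¹ = x by group] at h2

/-- The stabilizer in a factor is its own normalizer in the factor. -/
theorem Factor.mem_stabilizer_of_normalizes (hT : Factor M T) {v : V} (hv : v ≠ 1)
    (hR : T ⊓ MulAction.stabilizer H v ≠ ⊥) {z : H} (hz : z ∈ T)
    (hzn : z ∈ normalizer ((T ⊓ MulAction.stabilizer H v : Subgroup H) : Set H)) :
    z ∈ MulAction.stabilizer H v := by
  set S := MulAction.stabilizer H v with hSdef
  set R := T ⊓ S with hRdef
  let Y : Subgroup H := M ⊓ ⨅ s : S, (normalizer (R : Set H)).map (MulAut.conj (s : H)).toMonoidHom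
  have hY : ∀ {y : H}, y ∈ Y ↔ y ∈ M ∧ ∀ s ∈ S, s⁻¹ * y * s ∈ normalizer (R : Set H) := by
    intro y
    simp only [Y, mem_inf, mem_iInf, mem_map_conj, Subtype.forall]
  have hMS : ∀ y ∈ M, y ∈ S → y ∈ Y := fun y hy hyS =>
    hY.2 ⟨hy, fun s hs => inf_stabilizer_conj hT (smul_inv_smul_mem hy s)
      (S.mul_mem (S.mul_mem (S.inv_mem hs) hyS) hs)⟩
  have hSY : S ≤ normalizer (Y : Set H) := by
    have : ∀ s ∈ S, ∀ y ∈ Y, s * y * s⁻¹ ∈ Y := fun s hs y hy =>
      hY.2 ⟨(inferInstance : M.Normal).conj_mem y (hY.1 hy).1 s, fun s' hs' => by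
        have := (hY.1 hy).2 (s⁻¹ * s') (S.mul_mem (S.inv_mem hs) hs')
        rwa [show (s⁻¹ * s')⁻¹ * y * (s⁻¹ * s') = s'⁻¹ * (s * y * s⁻¹) * s' by group] at this⟩
    exact fun s hs => mem_normalizer_of_mapsTo (this s hs) fun y hy => by
      simpa using this s⁻¹ (S.inv_mem hs) y hy
  have hYS : Y ≤ S := by
    by_contra hcon
    have hK : Y ⊔ S = ⊤ :=
      (hS.maximal v hv).2 _ (lt_of_le_not_ge le_sup_right fun h => hcon (le_sup_left.trans h))
    refine Factor.not_le_stabilizer hS hM hmin hT hv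
      ((hT.eq_of_normalized hmin (inf_le_left : R ≤ T) hR fun t ht => ?_).ge.trans inf_le_right)
    have ht' : t ∈ ((Y ⊔ S : Subgroup H) : Set H) := by rw [hK]; exact mem_top t
    rw [Subgroup.coe_mul_of_right_le_normalizer_left Y S hSY] at ht'
    obtain ⟨y, hy, s, hs, rfl⟩ := ht'
    have hsM : s ∈ M := by
      simpa using M.mul_mem (M.inv_mem (hY.1 hy).1) (hT.le ht)
    have := (hY.1 (Y.mul_mem hy (hMS s hsM hs))).2 1 S.one_mem
    rwa [inv_one, one_mul, mul_one] at this
  refine hYS (hY.2 ⟨hT.le hz, fun s hs => ?_⟩)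
  by_cases h : T.map (MulAut.conj s⁻¹).toMonoidHom = T
  · -- `s` normalizes `T`, hence `R`
    have hsT : ∀ x, x ∈ T ↔ s * x * s⁻¹ ∈ T := fun x => by
      conv_lhs => rw [← h, mem_map_conj, inv_inv]
    have hsR : s ∈ normalizer (R : Set H) := mem_normalizer_iff.2 fun x => by
      simp only [hRdef, mem_inf, ← hsT x, mem_normalizer_iff.1 (le_normalizer hs) x]
    exact mul_mem (mul_mem (inv_mem hsR) hzn) hsR
  · refine mem_normalizer_iff.2 fun x => ?_
    have hc : ∀ r ∈ R, s⁻¹ * z * s * r = r * (s⁻¹ * z * s) := fun r hr =>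
      (hT.conj s⁻¹).commute hT h (mem_map_conj.2 (by simpa [mul_assoc] using hz)) hr.1
    constructor
    · intro hx
      rw [hc x hx, mul_inv_cancel_right]
      exact hx
    · intro hx
      have h' := hc _ hx
      have e : ∀ a : H, a * (a * x * a⁻¹) = a * x * a⁻¹ * a → a * x * a⁻¹ = x := fun a ha => calc
        a * x * a⁻¹ = a⁻¹ * (a * (a * x * a⁻¹)) := by group
        _ = a⁻¹ * (a * x * a⁻¹ * a) := by rw [ha]
        _ = x := by group
      rwa [e _ h'] at hx

/-- If one factor has a nontrivial stabilizer, so has every conjugate factor. -/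
theorem Factor.inf_stabilizer_ne_bot (hT : Factor M T) {v : V} (hv : v ≠ 1)
    (hR : T ⊓ MulAction.stabilizer H v ≠ ⊥) (g : H) :
    T.map (MulAut.conj g).toMonoidHom ⊓ MulAction.stabilizer H v ≠ ⊥ := by
  obtain ⟨s, hs, m, hm, rfl⟩ := hS.exists_mul hM hv g
  obtain ⟨r, hr, hr1⟩ := (Subgroup.bot_or_exists_ne_one _).resolve_left hR
  intro h
  have hmem : s * r * s⁻¹ ∈ T.map (MulAut.conj (s * m)).toMonoidHom ⊓ MulAction.stabilizer H v := by
    refine ⟨mem_map_conj.2 ?_,
      Subgroup.mul_mem _ (Subgroup.mul_mem _ hs hr.2) (Subgroup.inv_mem _ hs)⟩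
    have := conj_mem (hT.normalized (M.inv_mem hm)) hr.1
    rw [show (s * m)⁻¹ * (s * r * s⁻¹) * (s * m) = m⁻¹ * r * m⁻¹⁻¹ by group]
    exact this
  rw [h, Subgroup.mem_bot, mul_inv_eq_one] at hmem
  exact hr1 (mul_eq_left.1 hmem)

variable (h2 : ∀ v : V, v * v = 1) [Finite H] [Finite V] [Nontrivial V]
  (hFT : ∀ K : Subgroup H, Odd (Nat.card K) → Group.IsSolvable K)
  (hnc : ∀ T : Subgroup H, Factor M T → Even (Nat.card T))
include h2 hFT hnc

theorem Factor.exists_involution_notMem (hT : Factor M T) {v : V} (hv : v ≠ 1) :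
    ∃ t ∈ T, t * t = 1 ∧ t ∉ MulAction.stabilizer H v := by
  by_contra hcon
  push Not at hcon
  haveI : Fact (Nat.Prime 2) := ⟨Nat.prime_two⟩
  obtain ⟨t, ht⟩ := exists_prime_orderOf_dvd_card' (G := T) 2 (hnc T hT).two_dvd
  set I : Set H := {x | x ∈ T ∧ x * x = 1} with hI
  have ht1 : (t : H) ≠ 1 := fun e => by
    rw [← Subgroup.orderOf_coe, e, orderOf_one] at ht
    exact absurd ht (by norm_num)
  have htI : (t : H) ∈ I := ⟨t.2, by
    rw [← pow_two, ← ht, ← Subgroup.orderOf_coe, pow_orderOf_eq_one]⟩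
  have hle : closure I ≤ T := (closure_le _).2 fun x hx => hx.1
  have h : closure I = T := hT.eq_of_normalized hmin hle
    (fun e => ht1 (Subgroup.mem_bot.1 (e ▸ subset_closure htI))) fun g hg => by
      have : ∀ k ∈ T, closure I ≤ (closure I).comap (MulAut.conj k).toMonoidHom := fun k hk =>
        (closure_le _).2 fun x hx => subset_closure
          ⟨T.mul_mem (T.mul_mem hk hx.1) (T.inv_mem hk), by
            show k * x * k⁻¹ * (k * x * k⁻¹) = 1
            rw [show k * x * k⁻¹ * (k * x * k⁻¹) = k * (x * x) * k⁻¹ by group, hx.2]; group⟩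
      exact mem_normalizer_of_mapsTo (fun x hx => this g hg hx) fun x hx => by
        simpa using this g⁻¹ (T.inv_mem hg) hx
  exact Factor.not_le_stabilizer hS hM hmin hT hv
    (h.symm.le.trans ((closure_le _).2 fun x hx => hcon x hx.1 hx.2))

/-- There is only one factor. -/
theorem Factor.conj_eq (hT : Factor M T) (g : H) : T.map (MulAut.conj g).toMonoidHom = T := by
  classical
  by_contra hne
  set T' := T.map (MulAut.conj g).toMonoidHom with hT'def
  have hT' : Factor M T' := hT.conj g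
  have hback : T'.map (MulAut.conj g⁻¹).toMonoidHom = T := by
    ext x
    rw [mem_map_conj, hT'def, mem_map_conj]
    simp [mul_assoc]
  -- a vector with the largest stabilizer in `T`
  obtain ⟨v₀, hv₀⟩ := exists_ne (1 : V)
  haveI : Nonempty {u : V // u ≠ 1} := ⟨⟨v₀, hv₀⟩⟩
  obtain ⟨⟨v, hv⟩, hmax⟩ := Finite.exists_max
    fun u : {u : V // u ≠ 1} => Nat.card ↥(T ⊓ MulAction.stabilizer H u.1)
  set R := T ⊓ MulAction.stabilizer H v with hRdef
  have hR : R ≠ ⊥ := by
    haveI : Fact (Nat.Prime 2) := ⟨Nat.prime_two⟩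
    obtain ⟨t, ht⟩ := exists_prime_orderOf_dvd_card' (G := T) 2 (hnc T hT).two_dvd
    obtain ⟨u, hu, hu'⟩ := exists_fixed_of_involution h2 (t := (t : H))
      (by rw [← pow_two, ← ht, ← Subgroup.orderOf_coe, pow_orderOf_eq_one]) hv
    intro h
    have h1 := hmax ⟨u, hu⟩
    rw [h, card_bot] at h1
    have h3 : (t : H) ∈ T ⊓ MulAction.stabilizer H u := ⟨t.2, hu'⟩
    rw [Subgroup.eq_bot_of_card_le _ h1, Subgroup.mem_bot] at h3
    rw [← Subgroup.orderOf_coe, h3, orderOf_one] at ht
    exact absurd ht (by norm_num)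
  -- the conjugates of `R` in `T` meet trivially
  have hTI : ∀ x ∈ T, x ∉ R → ∀ r ∈ R, x * r * x⁻¹ ∈ R → r = 1 := by
    intro x hx hxR r hr hrx
    by_contra hr1
    obtain ⟨t, ht, htt, htv⟩ := Factor.exists_involution_notMem hS hM hmin h2 hFT hnc hT' hv
    have hcTT' : ∀ a ∈ T, ∀ b ∈ T', a * b = b * a :=
      fun a ha b hb => hT.commute hT' (Ne.symm hne) ha hb
    set a := x • v with ha
    set b := t • v with hb
    have hfix : ∀ {q : H}, q ∈ R → q • b = b := fun {q} hq => by
      rw [hb, smul_smul, hcTT' q hq.1 t ht, mul_smul, hq.2]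
    have hfixa : ∀ {q : H}, q ∈ R → (x * q * x⁻¹) • a = a := fun {q} hq => by
      rw [ha, smul_smul, inv_mul_cancel_right, mul_smul, hq.2]
    have hxnot : x ∉ normalizer (R : Set H) := fun h =>
      hxR ⟨hx, Factor.mem_stabilizer_of_normalizes hS hM hmin hT hv hR hx h⟩
    have hab : a ≠ b := by
      intro e
      have hs : x⁻¹ * t ∈ MulAction.stabilizer H v := by
        show (x⁻¹ * t) • v = v
        rw [mul_smul, ← hb, ← e, ha, inv_smul_smul]
      have hn := inf_stabilizer_conj hT (M.mul_mem (M.inv_mem (hT.le hx)) (hT'.le ht)) hs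
      have htn : t ∈ normalizer (R : Set H) := mem_normalizer_of_mapsTo
        (fun y hy => by rwa [← hcTT' y hy.1 t ht, mul_inv_cancel_right])
        (fun y hy => by rwa [mul_assoc, hcTT' y hy.1 t ht, inv_mul_cancel_left])
      refine hxnot (inv_mem_iff.1 ?_)
      have := mul_mem hn (inv_mem htn)
      rwa [mul_inv_cancel_right] at this
    set w := a * b with hw
    have hw1 : w ≠ 1 := mul_ne_one_of_ne h2 hab
    have hRw : T ⊓ MulAction.stabilizer H w ≠ ⊥ := by
      intro h
      have hmem : x * r * x⁻¹ ∈ T ⊓ MulAction.stabilizer H w := by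
        refine ⟨hrx.1, ?_⟩
        show (x * r * x⁻¹) • w = w
        rw [hw, smul_mul', hfixa hr, hfix hrx]
      rw [h, Subgroup.mem_bot, mul_inv_eq_one] at hmem
      exact hr1 (mul_eq_left.1 hmem)
    have hR'w := Factor.inf_stabilizer_ne_bot hS hM hmin hT hw1 hRw g
    rw [← hT'def] at hR'w
    -- an element of `T'` fixing `w` fixes `a` and `b`
    have hfixab : ∀ y ∈ T', y • w = w → y • a = a ∧ y • b = b := by
      intro y hy hyw
      have he : y • a * a = y • b * b := by
        rw [hw, smul_mul'] at hyw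
        calc y • a * a = y • a * a * (y • b * y • b) := by rw [h2, mul_one]
          _ = y • a * y • b * (a * y • b) := mul_mul_mul_comm _ _ _ _
          _ = a * b * (a * y • b) := by rw [hyw]
          _ = a * a * (b * y • b) := mul_mul_mul_comm _ _ _ _
          _ = y • b * b := by rw [h2, one_mul, mul_comm]
      suffices hu : y • a * a = 1 by
        refine ⟨?_, ?_⟩
        · exact (eq_inv_of_mul_eq_one_left hu).trans (inv_eq_of_mul_eq_one_right (h2 a))
        · exact (eq_inv_of_mul_eq_one_left (he.symm.trans hu)).trans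
            (inv_eq_of_mul_eq_one_right (h2 b))
      by_contra hu
      have hsub : ∀ q ∈ T, q • (y • a * a) = y • a * a →
          q ∈ T ⊓ MulAction.stabilizer H (y • a * a) := fun q hq h => ⟨hq, h⟩
      have hle : R ≤ T ⊓ MulAction.stabilizer H (y • a * a) := fun q hq => by
        refine hsub q hq.1 ?_
        rw [he, smul_mul', smul_smul, hcTT' q hq.1 y hy, mul_smul, hfix hq]
      have heq : R = T ⊓ MulAction.stabilizer H (y • a * a) :=
        Subgroup.eq_of_le_of_card_ge hle (hmax ⟨_, hu⟩)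
      have hconj : ∀ q ∈ R, x * q * x⁻¹ ∈ R := fun q hq => by
        have hqT : x * q * x⁻¹ ∈ T := T.mul_mem (T.mul_mem hx hq.1) (T.inv_mem hx)
        have := hsub _ hqT (by
          rw [smul_mul', smul_smul, hcTT' _ hqT y hy, mul_smul, hfixa hq])
        rwa [← heq] at this
      have hmap : R.map (MulAut.conj x).toMonoidHom = R := by
        refine Subgroup.eq_of_le_of_card_ge ?_ ?_
        · rintro _ ⟨q, hq, rfl⟩
          exact hconj q hq
        · rw [card_map_of_injective (MulAut.conj x).injective]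
      exact hxnot (mem_normalizer_iff_map_conj_eq.2 hmap)
    -- so the involution `t` normalizes `T'_w`
    have htw : t ∈ normalizer ((T' ⊓ MulAction.stabilizer H w : Subgroup H) : Set H) := by
      have key : ∀ y ∈ T' ⊓ MulAction.stabilizer H w,
          t * y * t⁻¹ ∈ T' ⊓ MulAction.stabilizer H w := by
        rintro y ⟨hy, hyw⟩
        obtain ⟨hya, hyb⟩ := hfixab y hy hyw
        have ht' : t⁻¹ = t := inv_eq_of_mul_eq_one_right htt
        have hyv : y • v = v := by
          rw [ha, smul_smul, ← hcTT' x hx y hy, mul_smul] at hya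
          exact MulAction.injective x hya
        have hmem : t * y * t⁻¹ ∈ T' := T'.mul_mem (T'.mul_mem ht hy) (T'.inv_mem ht)
        refine ⟨hmem, ?_⟩
        have hv' : (t * y * t⁻¹) • v = v := by
          rw [ht', mul_smul, mul_smul, ← hb, hyb, hb, smul_smul, htt, one_smul]
        show (t * y * t⁻¹) • w = w
        rw [hw, smul_mul']
        congr 1
        · rw [ha, smul_smul, ← hcTT' x hx _ hmem, mul_smul, hv']
        · rw [hb, smul_smul, inv_mul_cancel_right, mul_smul, hyv]
      exact mem_normalizer_of_mapsTo key fun y hy => by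
        have := key y hy
        rwa [inv_eq_of_mul_eq_one_right htt] at this ⊢
    refine htv ?_
    obtain ⟨hta, -⟩ := hfixab t ht
      (Factor.mem_stabilizer_of_normalizes hS hM hmin hT' hw1 hR'w ht htw)
    rw [ha, smul_smul, ← hcTT' x hx t ht, mul_smul] at hta
    exact MulAction.injective x hta
  -- Frobenius' theorem
  have hRT : R ≠ T := fun h => Factor.not_le_stabilizer hS hM hmin hT hv
    (fun y hy => ((h.symm ▸ hy : y ∈ R)).2)
  have hF : Cfsg.IsFrobeniusComplement (R.subgroupOf T) := by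
    refine Frobenius.isFrobeniusComplement_of_ti ?_ ?_ fun x hx y hy hxy => ?_
    · rw [Ne, subgroupOf_eq_bot]
      exact fun h => hR (by rw [← h.eq_bot]; exact (inf_eq_left.2 inf_le_left).symm)
    · rw [Ne, subgroupOf_eq_top]
      exact fun h => hRT (le_antisymm inf_le_left h)
    · exact Subtype.ext (hTI x x.2 hx y hy hxy)
  obtain ⟨N, -, hNn, hc⟩ := Frobenius.exists_kernel hF
  have hN1 : N.map T.subtype ≠ ⊥ := by
    rw [Ne, map_eq_bot_iff_of_injective _ T.subtype_injective]
    exact Frobenius.ne_bot_of_isComplement' hF hc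
  have hNT : N.map T.subtype = T := hT.eq_of_normalized hmin (map_subtype_le N) hN1 fun y hy => by
    have key : ∀ k ∈ T, ∀ z ∈ N.map T.subtype, k * z * k⁻¹ ∈ N.map T.subtype := by
      rintro k hk _ ⟨n, hn, rfl⟩
      exact ⟨⟨k, hk⟩ * n * ⟨k, hk⟩⁻¹, hNn.conj_mem n hn _, rfl⟩
    exact mem_normalizer_of_mapsTo (key y hy) fun z hz => by
      simpa using key y⁻¹ (T.inv_mem hy) z hz
  have hN : N = ⊤ := by
    apply map_injective T.subtype_injective
    rw [hNT, ← MonoidHom.range_eq_map, range_subtype]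
  rw [hN, isComplement'_top_left] at hc
  exact hR (le_bot_iff.1 (fun y hy => by
    have : (⟨y, hy.1⟩ : T) ∈ R.subgroupOf T := hy
    rw [hc, Subgroup.mem_bot] at this
    exact Subgroup.mem_bot.2 (congrArg Subtype.val this)))

end Cfsg.Agent.ExtremelyPrim
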