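import Cfsg.Agent.Lib.FrobeniusGroup
import Mathlib.GroupTheory.SpecificGroups.Cyclic
import Mathlib.GroupTheory.GroupAction.Basic

/-!
Irreducible groups with maximal vector stabilizers (the linear groups of affine extremely primitive
groups): in an insoluble one the module has exponent two and the group is almost simple.
-/

set_option autoImplicit false
set_option linter.unusedSectionVars false

namespace Cfsg.Agent.ExtremelyPrim

open Subgroup
open scoped Pointwise

variable {H V : Type*} [Group H] [CommGroup V] [MulDistribMulAction H V]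

/-- The hypotheses on the linear group. -/
structure Setting (H V : Type*) [Group H] [CommGroup V] [MulDistribMulAction H V] : Prop where
  faithful : ∀ h : H, (∀ v : V, h • v = v) → h = 1
  irreducible : ∀ W : Subgroup V, (∀ (h : H), ∀ w ∈ W, h • w ∈ W) → W = ⊥ ∨ W = ⊤
  maximal : ∀ v : V, v ≠ 1 → IsCoatom (MulAction.stabilizer H v)

theorem smul_inv_smul_mem {M : Subgroup H} [M.Normal] {m : H} (hm : m ∈ M) (h : H) :
    h⁻¹ * m * h ∈ M := by
  simpa using (inferInstance : M.Normal).conj_mem m hm h⁻¹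

/-- A nontrivial normal subgroup has no common fixed vector. -/
theorem Setting.fixed_eq_one (hS : Setting H V) {M : Subgroup H} [M.Normal] (hM : M ≠ ⊥) {v : V}
    (hv : ∀ m ∈ M, m • v = v) : v = 1 := by
  let W : Subgroup V :=
    { carrier := {w | ∀ m ∈ M, m • w = w}
      one_mem' := fun m _ => smul_one m
      mul_mem' := fun {a b} ha hb m hm => by rw [smul_mul', ha m hm, hb m hm]
      inv_mem' := fun {a} ha m hm => by rw [smul_inv', ha m hm] }
  have hW : ∀ (h : H), ∀ w ∈ W, h • w ∈ W := fun h w hw m hm => by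
    have := hw _ (smul_inv_smul_mem hm h)
    rw [mul_smul, mul_smul] at this
    exact inv_smul_eq_iff.1 this
  rcases hS.irreducible W hW with h | h
  · exact Subgroup.mem_bot.1 (h ▸ (show v ∈ W from hv))
  · refine absurd ((Subgroup.eq_bot_iff_forall _).2 fun m hm => hS.faithful m fun w => ?_) hM
    exact (show w ∈ W from h ▸ Subgroup.mem_top w) m hm

theorem Setting.exists_moved (hS : Setting H V) {M : Subgroup H} [M.Normal] (hM : M ≠ ⊥) {v : V}
    (hv : v ≠ 1) : ∃ m ∈ M, m • v ≠ v := by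
  by_contra h
  push Not at h
  exact hv (hS.fixed_eq_one hM h)

/-- A nontrivial normal subgroup is transitive on every orbit. -/
theorem Setting.sup_eq_top (hS : Setting H V) {M : Subgroup H} [M.Normal] (hM : M ≠ ⊥) {v : V}
    (hv : v ≠ 1) : M ⊔ MulAction.stabilizer H v = ⊤ := by
  obtain ⟨m, hm, hne⟩ := hS.exists_moved hM hv
  refine (hS.maximal v hv).2 _ (lt_of_le_not_ge le_sup_right fun h => hne ?_)
  exact h (mem_sup_left hm)

theorem Setting.exists_mul (hS : Setting H V) {M : Subgroup H} [M.Normal] (hM : M ≠ ⊥) {v : V}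
    (hv : v ≠ 1) (h : H) : ∃ s ∈ MulAction.stabilizer H v, ∃ m ∈ M, h = s * m := by
  have hh : h ∈ M ⊔ MulAction.stabilizer H v := by
    rw [hS.sup_eq_top hM hv]
    exact mem_top h
  rw [sup_comm, ← SetLike.mem_coe, Subgroup.mul_normal] at hh
  obtain ⟨s, hs, m, hm, e⟩ := hh
  exact ⟨s, hs, m, hm, e.symm⟩

/-- In odd characteristic an insoluble group cannot occur. -/
theorem Setting.two_of_insoluble [Finite H] (hS : Setting H V)
    (hsol : ¬ Group.IsSolvable H) (hodd : Odd (Nat.card H) → Group.IsSolvable H) {p : ℕ}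
    (hp : p.Prime) (hexp : ∀ v : V, v ^ p = 1) : p = 2 := by
  by_contra h2
  haveI : Fact (Nat.Prime 2) := ⟨Nat.prime_two⟩
  obtain ⟨t, ht⟩ := exists_prime_orderOf_dvd_card' (G := H) 2
    (Nat.even_iff.1 (Nat.not_odd_iff_even.1 fun h => hsol (hodd h)) |> Nat.dvd_of_mod_eq_zero)
  have ht1 : t ≠ 1 := fun e => by simp [e] at ht
  have htt : t * t = 1 := by rw [← pow_two, ← ht, pow_orderOf_eq_one]
  obtain ⟨w, hw⟩ : ∃ w : V, t • w ≠ w := by
    by_contra h
    push Not at h
    exact ht1 (hS.faithful t h)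
  set v := w⁻¹ * (t • w) with hv
  have hv1 : v ≠ 1 := fun e => hw (inv_mul_eq_one.1 e).symm
  have htv : t • v = v⁻¹ := by
    rw [hv, smul_mul', smul_inv', smul_smul, htt, one_smul, mul_inv_rev, inv_inv, mul_comm]
  have hne : v ≠ v⁻¹ := fun e => by
    have h' : v ^ 2 = 1 := by rw [pow_two]; nth_rewrite 2 [e]; rw [mul_inv_cancel]
    have := Nat.dvd_gcd (orderOf_dvd_of_pow_eq_one h') (orderOf_dvd_of_pow_eq_one (hexp v))
    rw [(Nat.coprime_primes Nat.prime_two hp).2 (Ne.symm h2), Nat.dvd_one,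
      orderOf_eq_one_iff] at this
    exact hv1 this
  let K : Subgroup H :=
    { carrier := {h | h • v = v ∨ h • v = v⁻¹}
      one_mem' := Or.inl (one_smul _ _)
      mul_mem' := fun {a b} ha hb => by
        rcases ha with ha | ha <;> rcases hb with hb | hb <;>
          simp [mul_smul, ha, hb, smul_inv']
      inv_mem' := fun {a} ha => by
        rcases ha with ha | ha
        · exact Or.inl (inv_smul_eq_iff.2 ha.symm)
        · refine Or.inr (inv_smul_eq_iff.2 ?_)
          rw [smul_inv', ha, inv_inv] }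
  have hK : K = ⊤ := by
    refine (hS.maximal v hv1).2 K (lt_of_le_not_ge (fun h hh => Or.inl hh) fun hle => ?_)
    exact hne (((hle (show t ∈ K from Or.inr htv)) : t • v = v).symm.trans htv)
  have hz : zpowers v = ⊤ := by
    refine (hS.irreducible (zpowers v) fun h x hx => ?_).resolve_left
      (fun e => hv1 (Subgroup.zpowers_eq_bot.1 e))
    obtain ⟨i, rfl⟩ := mem_zpowers_iff.1 hx
    rcases (show h ∈ K from hK ▸ mem_top h) with h' | h'
    · rw [smul_zpow', h']
      exact zpow_mem (mem_zpowers v) i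
    · rw [smul_zpow', h']
      exact zpow_mem (inv_mem (mem_zpowers v)) i
  have hsq : ∀ a : H, a * a = 1 := fun a => hS.faithful _ fun x => by
    obtain ⟨i, rfl⟩ := mem_zpowers_iff.1 (hz ▸ mem_top x : x ∈ zpowers v)
    rcases (show a ∈ K from hK ▸ mem_top a) with h' | h' <;>
      simp [mul_smul, smul_zpow', h', smul_inv']
  refine hsol (Group.isSolvable_of_comm fun a b => ?_)
  have hinv : ∀ x : H, x⁻¹ = x := fun x => inv_eq_of_mul_eq_one_right (hsq x)
  calc a * b = (a * b)⁻¹ := (hinv _).symm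
    _ = b * a := by rw [mul_inv_rev, hinv a, hinv b]

/-! ### Exponent two -/

theorem exists_normal_minimal [Finite H] {X : Subgroup H} (hX : X ≠ ⊥) [X.Normal] :
    ∃ M : Subgroup H, M ≤ X ∧ M.Normal ∧ M ≠ ⊥ ∧
      ∀ L : Subgroup H, L.Normal → L ≤ M → L = ⊥ ∨ L = M := by
  obtain ⟨M, hMX, hmin⟩ := Finite.exists_le_minimal
    (p := fun L : Subgroup H => L.Normal ∧ L ≠ ⊥) (a := X) ⟨inferInstance, hX⟩
  exact ⟨M, hMX, hmin.1.1, hmin.1.2, fun L hL hLM => or_iff_not_imp_left.2 fun h =>
    le_antisymm hLM (hmin.2 ⟨hL, h⟩ hLM)⟩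

variable (h2 : ∀ v : V, v * v = 1)
include h2

theorem mul_ne_one_of_ne {a b : V} (h : a ≠ b) : a * b ≠ 1 := fun e => h <| by
  rw [eq_inv_of_mul_eq_one_left e]
  exact inv_eq_of_mul_eq_one_right (h2 b)

theorem exists_fixed_of_involution {t : H} (ht : t * t = 1) {w : V} (hw : w ≠ 1) :
    ∃ v : V, v ≠ 1 ∧ t • v = v := by
  by_cases h : t • w = w
  · exact ⟨w, hw, h⟩
  · refine ⟨w * t • w, mul_ne_one_of_ne h2 (Ne.symm h), ?_⟩
    rw [smul_mul', smul_smul, ht, one_smul, mul_comm]

/-- There is no abelian minimal normal subgroup. -/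
theorem Setting.minimal_not_comm [Finite H] [Nontrivial V] (hS : Setting H V)
    (hsol : ¬ Group.IsSolvable H) {M : Subgroup H} [M.Normal] (hM : M ≠ ⊥)
    (hmin : ∀ L : Subgroup H, L.Normal → L ≤ M → L = ⊥ ∨ L = M) :
    ¬ ∀ a ∈ M, ∀ b ∈ M, a * b = b * a := by
  intro hc
  -- `M` acts without fixed points
  have hfpf : ∀ m ∈ M, m ≠ 1 → ∀ v : V, v ≠ 1 → m • v ≠ v := by
    intro m hm hm1 v hv e
    have hn : (M ⊓ MulAction.stabilizer H v).Normal := by
      refine ⟨fun x hx g => ⟨(inferInstance : M.Normal).conj_mem x hx.1 g, ?_⟩⟩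
      obtain ⟨s, hs, n, hn', rfl⟩ := hS.exists_mul hM hv g
      have hns : n * x * n⁻¹ = x := by rw [hc n hn' x hx.1, mul_inv_cancel_right]
      rw [show s * n * x * (s * n)⁻¹ = s * (n * x * n⁻¹) * s⁻¹ by group, hns]
      exact Subgroup.mul_mem _ (Subgroup.mul_mem _ hs hx.2) (Subgroup.inv_mem _ hs)
    rcases hmin _ hn inf_le_left with h | h
    · exact hm1 (Subgroup.mem_bot.1 (h ▸ (⟨hm, e⟩ : m ∈ M ⊓ MulAction.stabilizer H v)))
    · exact hv (hS.fixed_eq_one hM fun x hx => (inf_eq_left.1 h) hx)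
  obtain ⟨r, hr, hd⟩ := Nat.exists_prime_and_dvd (n := Nat.card M) (by rwa [Ne, card_eq_one])
  haveI := Fact.mk hr
  obtain ⟨a, ha⟩ := exists_prime_orderOf_dvd_card' (G := M) r hd
  have hao : orderOf (a : H) = r := by rw [Subgroup.orderOf_coe, ha]
  have ha1 : (a : H) ≠ 1 := fun e => hr.ne_one (by rw [← hao, e, orderOf_one])
  obtain ⟨v, hv⟩ := exists_ne (1 : V)
  have hr2 : r ≠ 2 := fun e => by
    obtain ⟨u, hu, hu'⟩ := exists_fixed_of_involution h2 (t := (a : H))
      (by rw [← pow_two, ← e, ← hao, pow_orderOf_eq_one]) hv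
    exact hfpf _ a.2 ha1 u hu hu'
  let T : Subgroup H :=
    { carrier := {x | x ∈ M ∧ x ^ r = 1}
      one_mem' := ⟨M.one_mem, one_pow _⟩
      mul_mem' := fun {x y} hx hy => ⟨M.mul_mem hx.1 hy.1, by
        rw [Commute.mul_pow (show Commute x y from hc x hx.1 y hy.1), hx.2, hy.2, one_mul]⟩
      inv_mem' := fun {x} hx => ⟨M.inv_mem hx.1, by rw [inv_pow, hx.2, inv_one]⟩ }
  have hexp : ∀ x ∈ M, x ^ r = 1 := by
    have hTn : T.Normal := ⟨fun x hx g =>
      ⟨(inferInstance : M.Normal).conj_mem x hx.1 g, by rw [conj_pow, hx.2]; group⟩⟩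
    rcases hmin T hTn (fun x hx => hx.1) with h | h
    · exact absurd (Subgroup.mem_bot.1 (h ▸ (⟨a.2, hao ▸ pow_orderOf_eq_one _⟩ : (a : H) ∈ T))) ha1
    · exact fun x hx => (h.symm ▸ hx : x ∈ T).2
  have hord : ∀ x ∈ M, x ≠ 1 → ∀ i < r, i ≠ 0 → x ^ i ≠ 1 := by
    intro x hx hx1 i hi hi0
    exact pow_ne_one_of_lt_orderOf hi0 (by rw [orderOf_eq_prime (hexp x hx) hx1]; exact hi)
  have hN : ∀ x ∈ M, x ≠ 1 → ∀ w : V, ∏ i ∈ Finset.range r, x ^ i • w = 1 := by
    intro x hx hx1 w
    by_contra hne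
    refine hfpf x hx hx1 _ hne ?_
    rw [Finset.smul_prod']
    have e1 : ∀ i, x • x ^ i • w = x ^ (i + 1) • w := fun i => by rw [pow_succ', mul_smul]
    simp only [e1]
    have h0 := Finset.prod_range_succ' (fun i => x ^ i • w) r
    rw [Finset.prod_range_succ, hexp x hx, pow_zero] at h0
    exact mul_right_cancel h0.symm
  -- `M` is cyclic
  have hMa : M ≤ zpowers (a : H) := by
    intro b hb
    by_contra hbz
    have hab : ∀ i, (b * (a : H) ^ i) ≠ 1 := fun i e => hbz <| by
      rw [eq_inv_of_mul_eq_one_left e]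
      exact inv_mem (pow_mem (mem_zpowers _) i)
    have hmem : ∀ j, b * (a : H) ^ j ∈ M := fun j => M.mul_mem hb (M.pow_mem a.2 j)
    have h1 : ∀ j i, (b * (a : H) ^ j) ^ i • v = b ^ i • (((a : H) ^ i) ^ j • v) := fun j i => by
      rw [← mul_smul, Commute.mul_pow (show Commute b _ from hc b hb _ (M.pow_mem a.2 j)),
        ← pow_mul, ← pow_mul, mul_comm j i]
    have hL : ∏ i ∈ Finset.range r, ∏ j ∈ Finset.range r, b ^ i • (((a : H) ^ i) ^ j • v) = 1 := by
      rw [Finset.prod_comm]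
      refine Finset.prod_eq_one fun j _ => ?_
      simp only [← h1]
      exact hN _ (hmem j) (hab j) v
    rw [Finset.prod_eq_single 0 (fun i hi hi0 => by
      rw [← Finset.smul_prod', hN _ (M.pow_mem a.2 i)
        (hord _ a.2 ha1 i (Finset.mem_range.1 hi) hi0) v, smul_one])
      (fun h => absurd (Finset.mem_range.2 hr.pos) h)] at hL
    simp only [pow_zero, one_pow, one_smul, Finset.prod_const, Finset.card_range] at hL
    refine hv ?_
    obtain ⟨k, hk⟩ := hr.odd_of_ne_two hr2
    rw [hk, pow_succ, pow_mul, pow_two, h2, one_pow, one_mul] at hL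
    exact hL
  -- so `H` is soluble
  haveI : IsCyclic M := Subgroup.isCyclic_of_le hMa
  have hcent : centralizer (M : Set H) ≤ M := by
    intro c hc'
    obtain ⟨s, hs, m, hm, rfl⟩ := hS.exists_mul hM hv c
    have hsc : s ∈ centralizer (M : Set H) := by
      have := Subgroup.mul_mem _ hc' (inv_mem
        (show m ∈ centralizer (M : Set H) from mem_centralizer_iff.2 fun y hy => hc y hy m hm))
      rwa [mul_inv_cancel_right] at this
    have hn : ((centralizer (M : Set H)) ⊓ MulAction.stabilizer H v).Normal := by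
      refine ⟨fun x hx g => ⟨?_, ?_⟩⟩
      · exact (inferInstance : (centralizer (M : Set H)).Normal).conj_mem x hx.1 g
      · obtain ⟨s', hs', n, hn', rfl⟩ := hS.exists_mul hM hv g
        have hns : n * x * n⁻¹ = x := by
          rw [mem_centralizer_iff.1 hx.1 n hn', mul_inv_cancel_right]
        rw [show s' * n * x * (s' * n)⁻¹ = s' * (n * x * n⁻¹) * s'⁻¹ by group, hns]
        exact Subgroup.mul_mem _ (Subgroup.mul_mem _ hs' hx.2) (Subgroup.inv_mem _ hs')
    have hbot : (centralizer (M : Set H)) ⊓ MulAction.stabilizer H v = ⊥ := by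
      by_contra hne
      exact hv (hS.fixed_eq_one (M := centralizer (M : Set H) ⊓ MulAction.stabilizer H v) hne
        fun x hx => hx.2)
    have hs1 : s = 1 := Subgroup.mem_bot.1 (hbot ▸
      (⟨hsc, hs⟩ : s ∈ centralizer (M : Set H) ⊓ MulAction.stabilizer H v))
    rw [hs1, one_mul]
    exact hm
  refine hsol ?_
  let e := IsCyclic.mulAutMulEquiv (G := M)
  haveI : Group.IsSolvable (MulAut M) := by
    refine Group.isSolvable_of_comm fun x y => ?_
    apply e.injective
    rw [map_mul, map_mul, mul_comm]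
  haveI : Group.IsSolvable M := Group.isSolvable_of_comm fun x y => Subtype.ext (hc x x.2 y y.2)
  refine Group.isSolvable_of_ker_le_range M.subtype (MulAut.conjNormal (G := H) (H := M))
    fun g hg => ⟨⟨g, hcent (mem_centralizer_iff.2 fun y hy => ?_)⟩, rfl⟩
  have h' := congrArg Subtype.val (DFunLike.congr_fun (MonoidHom.mem_ker.1 hg) ⟨y, hy⟩)
  rw [MulAut.conjNormal_apply, MulAut.one_apply] at h'
  exact (mul_inv_eq_iff_eq_mul.1 h').symm

end Cfsg.Agent.ExtremelyPrim
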