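import Cfsg.Agent.ExtremelyPrim.AlmostSimple

/-!
An insoluble irreducible group with maximal vector stabilizers on a group of exponent two has a
nonabelian simple normal subgroup with trivial centralizer.
-/

set_option autoImplicit false
set_option linter.unusedSectionVars false

namespace Cfsg.Agent.ExtremelyPrim

open Subgroup

variable {H V : Type*} [Group H] [Finite H] [CommGroup V] [Finite V] [Nontrivial V]
  [MulDistribMulAction H V]

/-- A soluble minimal normal subgroup is abelian. -/
theorem comm_of_isSolvable {X : Subgroup H} (hX : X ≠ ⊥) (hs : Group.IsSolvable X)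
    (h : ⁅X, X⁆ = ⊥ ∨ ⁅X, X⁆ = X) : ∀ a ∈ X, ∀ b ∈ X, a * b = b * a := by
  rcases h with h | h
  · exact fun a ha b hb => (mem_centralizer_iff.1 (commutator_eq_bot_iff_le_centralizer.1 h ha) b hb).symm
  · exfalso
    haveI := hs
    haveI : Nontrivial X := X.bot_or_nontrivial.resolve_left hX
    refine (Group.IsSolvable.commutator_lt_top_of_nontrivial (G := X)).ne ?_
    apply map_injective X.subtype_injective
    rw [map_subtype_commutator, h, ← MonoidHom.range_eq_map, range_subtype]

theorem Setting.almost_simple (hS : Setting H V) (h2 : ∀ v : V, v * v = 1)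
    (hsol : ¬ Group.IsSolvable H) (hFT : ∀ K : Subgroup H, Odd (Nat.card K) → Group.IsSolvable K) :
    ∃ T : Subgroup H, T.Normal ∧ IsSimpleGroup T ∧ ¬ IsMulCommutative T ∧
      centralizer (T : Set H) = ⊥ := by
  haveI : Nontrivial H := by
    by_contra h
    rw [not_nontrivial_iff_subsingleton] at h
    exact hsol (Group.isSolvable_of_comm fun a b => Subsingleton.elim _ _)
  obtain ⟨M, -, hMn, hM, hmin⟩ := exists_normal_minimal (X := (⊤ : Subgroup H)) top_ne_bot
  haveI := hMn
  have hnc := Setting.minimal_not_comm h2 hS hsol hM hmin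
  have hMC : M ⊓ centralizer (M : Set H) = ⊥ := (hmin _ inferInstance inf_le_left).resolve_right
    fun h => hnc fun a ha b hb => (mem_centralizer_iff.1 ((inf_eq_left.1 h) ha) b hb).symm
  have hC : centralizer (M : Set H) = ⊥ := by
    by_contra hC
    -- `M` acts without fixed points
    have hfpf : ∀ v : V, v ≠ 1 → ∀ x ∈ M, x • v = v → x = 1 := fun v hv x hx hxv => by
      let W : Subgroup V :=
        { carrier := {w | x • w = w}
          one_mem' := smul_one x
          mul_mem' := fun {a b} (ha : x • a = a) (hb : x • b = b) => by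
            show x • (a * b) = a * b
            rw [smul_mul', ha, hb]
          inv_mem' := fun {a} (ha : x • a = a) => by
            show x • a⁻¹ = a⁻¹
            rw [smul_inv', ha] }
      let U : Subgroup V := Subgroup.closure (MulAction.orbit H v)
      have hU : ∀ (h : H), ∀ w ∈ U, h • w ∈ U := fun h w hw => by
        refine closure_induction (fun y hy => subset_closure ?_) (by rw [smul_one]; exact one_mem _)
          (fun a b _ _ ha hb => by rw [smul_mul']; exact mul_mem ha hb)
          (fun a _ ha => by rw [smul_inv']; exact inv_mem ha) hw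
        obtain ⟨k, rfl⟩ := hy
        exact ⟨h * k, mul_smul h k v⟩
      have hUW : U ≤ W := (closure_le _).2 fun y hy => by
        obtain ⟨k, rfl⟩ := hy
        obtain ⟨s, hs, c, hc, e⟩ := hS.exists_mul hC hv k⁻¹
        have hk : k = c⁻¹ * s⁻¹ := by rw [← inv_inj, e, mul_inv_rev, inv_inv, inv_inv]
        show x • (k • v) = k • v
        have hcx : x * c⁻¹ = c⁻¹ * x := mem_centralizer_iff.1 (inv_mem hc) x hx
        rw [hk, mul_smul, show s⁻¹ • v = v from inv_smul_eq_iff.2 hs.symm, smul_smul, hcx,
          mul_smul, hxv]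
      rcases hS.irreducible U hU with h | h
      · exact absurd (Subgroup.mem_bot.1 (h ▸ subset_closure (MulAction.mem_orbit_self v))) hv
      · exact hS.faithful x fun w => hUW (h ▸ mem_top w : w ∈ U)
    have hodd : Odd (Nat.card M) := by
      rw [← Nat.not_even_iff_odd]
      intro he
      haveI : Fact (Nat.Prime 2) := ⟨Nat.prime_two⟩
      obtain ⟨t, ht⟩ := exists_prime_orderOf_dvd_card' (G := M) 2 he.two_dvd
      obtain ⟨v₀, hv₀⟩ := exists_ne (1 : V)
      obtain ⟨u, hu, hu'⟩ := exists_fixed_of_involution h2 (t := (t : H))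
        (by rw [← pow_two, ← ht, ← Subgroup.orderOf_coe, pow_orderOf_eq_one]) hv₀
      rw [← Subgroup.orderOf_coe, hfpf u hu _ t.2 hu', orderOf_one] at ht
      exact absurd ht (by norm_num)
    exact hnc (comm_of_isSolvable hM (hFT M hodd)
      (hmin _ inferInstance (commutator_le_self M)))
  obtain ⟨T, hT⟩ := exists_factor hM
  have hncomm : ∀ T : Subgroup H, Factor M T → ¬ ∀ a ∈ T, ∀ b ∈ T, a * b = b * a := by
    intro T hT hc
    refine hT.ne_bot (eq_bot_iff.2 fun a ha => ?_)
    refine (hMC.le) ⟨hT.le ha, mem_centralizer_iff.2 ?_⟩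
    refine hT.induction hmin (by simp) (fun x y hx hy => by rw [mul_assoc, hy, ← mul_assoc, hx, mul_assoc])
      (fun x hx => (Commute.inv_left (show Commute x a from hx)).eq) fun g x hx => ?_
    by_cases h : T.map (MulAut.conj g).toMonoidHom = T
    · exact hc x (h ▸ mem_map_conj.2 hx) a ha
    · exact (hT.conj g).commute hT h (mem_map_conj.2 hx) ha
  have hcomm_norm : ∀ T : Subgroup H, T ≤ normalizer ((⁅T, T⁆ : Subgroup H) : Set H) := fun T =>
    (le_normalizer (H := T)).trans fun x hx => by
      rw [mem_normalizer_iff_map_conj_eq] at hx ⊢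
      rw [map_commutator, hx]
  have hev : ∀ T : Subgroup H, Factor M T → Even (Nat.card T) := fun T hT => by
    by_contra h
    refine hncomm T hT (comm_of_isSolvable hT.ne_bot (hFT T (Nat.not_even_iff_odd.1 h)) ?_)
    exact or_iff_not_imp_left.2 fun hne =>
      hT.eq_of_normalized hmin (commutator_le_self T) hne (hcomm_norm T)
  have hTM : T = M := by
    refine (hmin T ⟨fun x hx g => ?_⟩ hT.le).resolve_left hT.ne_bot
    rw [← Factor.conj_eq hS hM hmin h2 hFT hev hT g, mem_map_conj]
    simpa [mul_assoc] using hx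
  subst hTM
  refine ⟨T, hMn, ?_, fun h => hnc fun a ha b hb => congrArg Subtype.val (h.is_comm.comm ⟨a, ha⟩ ⟨b, hb⟩), hC⟩
  haveI : Nontrivial T := T.bot_or_nontrivial.resolve_left hM
  refine ⟨fun N hN => ?_⟩
  by_cases hb : N.map T.subtype = ⊥
  · exact Or.inl ((map_eq_bot_iff_of_injective _ T.subtype_injective).1 hb)
  · right
    have key : ∀ k ∈ T, ∀ z ∈ N.map T.subtype, k * z * k⁻¹ ∈ N.map T.subtype := by
      rintro k hk _ ⟨n, hn, rfl⟩
      exact ⟨⟨k, hk⟩ * n * ⟨k, hk⟩⁻¹, hN.conj_mem n hn _, rfl⟩
    have h := hT.eq_of_normalized hmin (map_subtype_le N) hb fun y hy =>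
      mem_normalizer_of_mapsTo (key y hy) fun z hz => by simpa using key y⁻¹ (T.inv_mem hy) z hz
    apply map_injective T.subtype_injective
    rw [h, ← MonoidHom.range_eq_map, range_subtype]

end Cfsg.Agent.ExtremelyPrim
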